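import Mathlib

/-! Weights of a normal abelian subgroup on a module in coprime characteristic; fixed vectors of a
`2`-subgroup attached to its orbits on the weights. -/

set_option autoImplicit false
set_option linter.style.haveILetI false

namespace H38.Wt

variable {S : Type*} [Group S] {K : Type*} [Field K] {V : Type*} [AddCommGroup V] [Module K V]
variable (P : Subgroup S) [hP : P.Normal]

/-- conjugation action on the linear characters of the normal subgroup `P`. -/
@[reducible] def act : MulAction S (P →* Kˣ) where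
  smul g l := l.comp (MulAut.conjNormal g⁻¹ : MulAut P).toMonoidHom
  one_smul l := by
    ext y
    change ((l (MulAut.conjNormal (1 : S)⁻¹ y) : Kˣ) : K) = _
    simp
  mul_smul g h l := by
    ext y
    change ((l (MulAut.conjNormal (g * h)⁻¹ y) : Kˣ) : K) =
      ((l (MulAut.conjNormal h⁻¹ (MulAut.conjNormal g⁻¹ y)) : Kˣ) : K)
    rw [mul_inv_rev, map_mul]; rfl

attribute [local instance] act

theorem smul_apply (g : S) (l : P →* Kˣ) (y : P) :
    (g • l) y = l (MulAut.conjNormal g⁻¹ y) := rfl

variable [Fintype P] (σ : Representation K S V)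

/-- the (unnormalised) projection to the weight space of `l`. -/
noncomputable def pr (l : P →* Kˣ) : V →ₗ[K] V := ∑ y : P, ((l y⁻¹ : Kˣ) : K) • σ y

theorem pr_conj (g : S) (l : P →* Kˣ) (v : V) : σ g (pr P σ l v) = pr P σ (g • l) (σ g v) := by
  simp only [pr, LinearMap.sum_apply, LinearMap.smul_apply, map_sum, map_smul]
  refine Fintype.sum_equiv (MulAut.conjNormal g : MulAut P).toEquiv _ _ fun y => ?_
  have h1 : (g • l) ((MulAut.conjNormal g : MulAut P).toEquiv y)⁻¹ = l y⁻¹ := by
    rw [smul_apply]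
    congr 1
    apply Subtype.ext
    simp [mul_assoc]
  rw [h1]
  congr 1
  rw [← Module.End.mul_apply, ← map_mul, ← Module.End.mul_apply, ← map_mul]
  congr 2
  simp [mul_assoc]

omit hP in
theorem sum_pr [IsMulCommutative P] [HasEnoughRootsOfUnity K (Monoid.exponent P)]
    [Fintype (P →* Kˣ)] (v : V) :
    ∑ l : P →* Kˣ, pr P σ l v = (Nat.card P : K) • v := by
  classical
  letI : CommGroup P := { (inferInstance : Group P) with mul_comm := fun a b => mul_comm' a b }
  simp only [pr, LinearMap.sum_apply, LinearMap.smul_apply]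
  rw [Finset.sum_comm, Finset.sum_eq_single (1 : P)]
  · simp only [inv_one, map_one, Units.val_one, OneMemClass.coe_one, one_smul, Module.End.one_apply,
      Finset.sum_const, Finset.card_univ]
    rw [← Nat.card_eq_fintype_card, CommGroup.card_monoidHom_of_hasEnoughRootsOfUnity,
      Nat.cast_smul_eq_nsmul]
  · intro y _ hy
    rw [← Finset.sum_smul]
    obtain ⟨φ, hφ⟩ := CommGroup.exists_apply_ne_one_of_hasEnoughRootsOfUnity P K (inv_ne_one.2 hy)
    have h : ((φ y⁻¹ : Kˣ) : K) * ∑ l : P →* Kˣ, ((l y⁻¹ : Kˣ) : K) =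
        ∑ l : P →* Kˣ, ((l y⁻¹ : Kˣ) : K) := by
      rw [Finset.mul_sum]
      exact Fintype.sum_equiv (Equiv.mulLeft φ) _ _ fun l => by simp
    have h0 : ∑ l : P →* Kˣ, ((l y⁻¹ : Kˣ) : K) = 0 := by
      by_contra hne
      apply hφ
      apply Units.ext
      exact mul_right_cancel₀ hne (by rw [h]; simp)
    rw [h0, zero_smul]
  · simp

omit hP in
theorem pr_pr {l m : P →* Kˣ} (h : l ≠ m) (v : V) : pr P σ l (pr P σ m v) = 0 := by
  have key : ∀ y : P, σ y (pr P σ m v) = ((m y : Kˣ) : K) • pr P σ m v := by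
    intro y
    simp only [pr, LinearMap.sum_apply, LinearMap.smul_apply, map_sum, map_smul, Finset.smul_sum]
    refine Fintype.sum_equiv (Equiv.mulLeft y) _ _ fun z => ?_
    simp only [Equiv.coe_mulLeft, mul_inv_rev, map_mul, Subgroup.coe_mul, Module.End.mul_apply,
      smul_smul, Units.val_mul]
    congr 1
    rw [map_inv m y]
    field_simp
    simp
  have h2 : pr P σ l (pr P σ m v) = (∑ y : P, (((l⁻¹ * m) y : Kˣ) : K)) • pr P σ m v := by
    conv_lhs => rw [pr]
    simp only [LinearMap.sum_apply, LinearMap.smul_apply, key, smul_smul, Finset.sum_smul]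
    refine Finset.sum_congr rfl fun y _ => ?_
    simp
  rw [h2]
  have h3 : (Units.coeHom K).comp (l⁻¹ * m) ≠ 1 := by
    intro h1
    apply h
    ext y
    have := DFunLike.congr_fun h1 y
    simp only [MonoidHom.comp_apply, Units.coeHom_apply, MonoidHom.one_apply,
      MonoidHom.mul_apply, MonoidHom.inv_apply, Units.val_eq_one] at this
    rw [inv_mul_eq_one.1 this]
  have := sum_hom_units_eq_zero ((Units.coeHom K).comp (l⁻¹ * m)) h3
  simp only [MonoidHom.comp_apply, Units.coeHom_apply] at this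
  rw [this, zero_smul]

/-- the set of weights that occur in `v`. -/
def supp (v : V) : Set (P →* Kˣ) := {l | pr P σ l v ≠ 0}

theorem mem_supp_smul (g : S) (l : P →* Kˣ) (v : V) : g • l ∈ supp P σ (σ g v) ↔ l ∈ supp P σ v := by
  simp only [supp, Set.mem_ofPred_eq, ← pr_conj]
  refine not_congr ⟨fun h => ?_, fun h => by rw [h, map_zero]⟩
  have := congrArg (σ g⁻¹) h
  rwa [← Module.End.mul_apply, ← map_mul, inv_mul_cancel, map_one, map_zero] at this

omit hP in
theorem supp_nonempty [IsMulCommutative P] [HasEnoughRootsOfUnity K (Monoid.exponent P)]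
    (hc : (Nat.card P : K) ≠ 0) {v : V} (hv : v ≠ 0) : (supp P σ v).Nonempty := by
  classical
  letI : Fintype (P →* Kˣ) := Fintype.ofFinite _
  by_contra h
  rw [Set.not_nonempty_iff_eq_empty] at h
  have h0 : ∀ l, pr P σ l v = 0 := fun l => by
    by_contra hl
    exact (Set.eq_empty_iff_forall_notMem.1 h l) hl
  have := sum_pr P σ v
  simp only [h0, Finset.sum_const_zero] at this
  exact hv ((smul_eq_zero.1 this.symm).resolve_left hc)

omit hP in
theorem linInd [IsMulCommutative P] [HasEnoughRootsOfUnity K (Monoid.exponent P)]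
    (hc : (Nat.card P : K) ≠ 0) {ι : Type*} [Fintype ι] (v : ι → V) (hv : ∀ i, v i ≠ 0)
    (hd : ∀ i j, i ≠ j → Disjoint (supp P σ (v i)) (supp P σ (v j))) : LinearIndependent K v := by
  classical
  rw [Fintype.linearIndependent_iff]
  intro c hc0 i
  obtain ⟨l, hl⟩ := supp_nonempty P σ hc (hv i)
  have := congrArg (pr P σ l) hc0
  rw [map_sum, map_zero, Finset.sum_eq_single i] at this
  · rw [map_smul] at this
    exact (smul_eq_zero.1 this).resolve_right hl
  · intro j _ hj
    have : l ∉ supp P σ (v j) := fun h => Set.disjoint_left.1 (hd i j (Ne.symm hj)) hl h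
    simp only [supp, Set.mem_ofPred_eq, not_not] at this
    rw [map_smul, this, smul_zero]
  · simp

/-- a nonzero `T`-fixed vector supported on a `T`-orbit of weights. -/
theorem exists_fixed [Finite V] [CharP K 2] (T : Subgroup S) (hT : IsPGroup 2 T) (l : P →* Kˣ)
    {w : V} (hw : l ∈ supp P σ w) :
    ∃ v : V, v ≠ 0 ∧ (∀ s ∈ T, σ s v = v) ∧ supp P σ v ⊆ MulAction.orbit T l := by
  classical
  let U : Submodule K V :=
    { carrier := {v | ∀ m, m ∉ MulAction.orbit T l → pr P σ m v = 0}
      add_mem' := fun {a b} ha hb m hm => by rw [map_add, ha m hm, hb m hm, add_zero]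
      zero_mem' := fun m _ => map_zero _
      smul_mem' := fun c a ha m hm => by rw [map_smul, ha m hm, smul_zero] }
  have hU : ∀ s : T, ∀ v ∈ U, σ s v ∈ U := by
    intro s v hv m hm
    have h1 : m = (s : S) • ((s : S)⁻¹ • m) := by simp
    rw [h1, ← pr_conj, hv, map_zero]
    intro h
    apply hm
    obtain ⟨t, ht⟩ := h
    refine ⟨s * t, ?_⟩
    simp only [mul_smul] at ht ⊢
    rw [ht]
    exact h1.symm
  letI : MulAction T U :=
    { smul := fun s v => ⟨σ s v, hU s v v.2⟩
      one_smul := fun v => Subtype.ext (by change σ ((1 : T) : S) v = v; simp)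
      mul_smul := fun s t v => Subtype.ext (by
        change σ ((s * t : T) : S) v = σ s (σ t v); simp) }
  have hwU : pr P σ l w ∈ U := fun m hm =>
    pr_pr P σ (fun h : m = l => hm (by rw [h]; exact MulAction.mem_orbit_self _)) w
  have h2 : 2 ∣ Nat.card U := by
    have ho : addOrderOf (⟨_, hwU⟩ : U) = 2 := by
      haveI : Fact (Nat.Prime 2) := ⟨Nat.prime_two⟩
      apply addOrderOf_eq_prime
      · rw [← Nat.cast_smul_eq_nsmul K, CharP.cast_eq_zero, zero_smul]
      · intro h
        exact hw (congrArg Subtype.val h)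
    rw [← ho]
    exact addOrderOf_dvd_natCard _
  haveI : Fact (Nat.Prime 2) := ⟨Nat.prime_two⟩
  have h0 : (0 : U) ∈ MulAction.fixedPoints T U := fun s => Subtype.ext (map_zero (σ s))
  obtain ⟨b, hb, hb0⟩ := hT.exists_fixed_point_of_prime_dvd_card_of_fixed_point U h2 h0
  refine ⟨b, fun h => hb0 (Subtype.ext h.symm), fun s hs => congrArg Subtype.val (hb ⟨s, hs⟩), ?_⟩
  intro m hm
  by_contra h
  exact hm (b.2 m h)

/-- an element of odd prime order without fixed weights does not stabilise an orbit of a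
`2`-group. -/
theorem not_inv [Finite S] (T : Subgroup S) (hT : IsPGroup 2 T) {q : ℕ} (hq : q.Prime) (hq2 : q ≠ 2)
    (x : S) (hx : x ^ q = 1) (l : P →* Kˣ) (hf : ∀ m ∈ MulAction.orbit T l, x • m ≠ m) :
    ¬ ∀ m ∈ MulAction.orbit T l, x • m ∈ MulAction.orbit T l := by
  classical
  intro h
  haveI : Fact (Nat.Prime 2) := ⟨Nat.prime_two⟩
  haveI : Fact q.Prime := ⟨hq⟩
  haveI : Finite (MulAction.orbit T l) := (Set.finite_range _).to_subtype
  letI : Fintype (MulAction.orbit T l) := Fintype.ofFinite _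
  obtain ⟨n, hn⟩ := hT.card_orbit l
  let f : Function.End (MulAction.orbit T l) := fun m => ⟨x • m.1, h m.1 m.2⟩
  have hfk : ∀ (k : ℕ) (m : MulAction.orbit T l), ((f ^ k) m).1 = x ^ k • m.1 := by
    intro k
    induction k with
    | zero => intro m; simp; rfl
    | succ k ih =>
      intro m
      rw [pow_succ', pow_succ', mul_smul, ← ih]; rfl
  have hf1 : f ^ q ^ 1 = 1 := by
    funext m
    apply Subtype.ext
    rw [pow_one, hfk, hx, one_smul]; rfl
  have hmod := Equiv.Perm.card_fixedPoints_modEq hf1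
  have h0 : Fintype.card (Function.fixedPoints f) = 0 := by
    rw [Fintype.card_eq_zero_iff]
    exact ⟨fun m => hf m.1.1 m.1.2 (congrArg Subtype.val m.2)⟩
  rw [h0, ← Nat.card_eq_fintype_card, hn] at hmod
  have := (Nat.modEq_zero_iff_dvd.1 hmod)
  exact hq2 ((Nat.prime_dvd_prime_iff_eq hq Nat.prime_two).1 (hq.dvd_of_dvd_pow this))

theorem supp_eq_orbit (T : Subgroup S) {v : V} (hv : ∀ s ∈ T, σ s v = v) {l : P →* Kˣ}
    (hne : (supp P σ v).Nonempty) (hs : supp P σ v ⊆ MulAction.orbit T l) :
    supp P σ v = MulAction.orbit T l := by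
  refine Set.Subset.antisymm hs ?_
  obtain ⟨m, hm⟩ := hne
  rw [← MulAction.orbit_eq_iff.2 (hs hm)]
  rintro _ ⟨s, rfl⟩
  have := (mem_supp_smul P σ (s : S) m v).2 hm
  rwa [hv s s.2] at this

/-- the main statement: two independent fixed vectors, and three when the fixed space is stable. -/
theorem main [Finite S] [Finite V] [Nontrivial V] [CharP K 2] [IsMulCommutative P]
    [HasEnoughRootsOfUnity K (Monoid.exponent P)] (hc : (Nat.card P : K) ≠ 0)
    (h1 : ∑ y : P, σ y = 0) (T : Subgroup S) (hT : IsPGroup 2 T) {q : ℕ} (hq : q.Prime)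
    (hq2 : q ≠ 2) (x : S) (hx : x ^ q = 1)
    (hf : ∀ l : P →* Kˣ, (∀ y : P, l (MulAut.conjNormal x⁻¹ y) = l y) → l = 1)
    (hf2 : ∀ l : P →* Kˣ, (∀ y : P, l (MulAut.conjNormal (x * x)⁻¹ y) = l y) → l = 1) :
    (∃ v : Fin 2 → V, (∀ i, ∀ s ∈ T, σ s (v i) = v i) ∧ LinearIndependent K v) ∧
    ((∀ v, (∀ s ∈ T, σ s v = v) → ∀ s ∈ T, σ s (σ x v) = σ x v) →
      ∃ v : Fin 3 → V, (∀ i, ∀ s ∈ T, σ s (v i) = v i) ∧ LinearIndependent K v) := by
  classical
  obtain ⟨w, hw⟩ := exists_ne (0 : V)
  obtain ⟨l, hl⟩ := supp_nonempty P σ hc hw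
  have hne1 : ∀ (u : V), ∀ m ∈ supp P σ u, m ≠ 1 := by
    rintro u m hm rfl
    apply hm
    simp only [pr, MonoidHom.one_apply, Units.val_one, one_smul, h1, LinearMap.zero_apply]
  obtain ⟨v, hv0, hvT, hvs⟩ := exists_fixed P σ T hT l hl
  have hO := supp_eq_orbit P σ T hvT (supp_nonempty P σ hc hv0) hvs
  have hfp : ∀ z : S, (∀ l : P →* Kˣ, (∀ y : P, l (MulAut.conjNormal z⁻¹ y) = l y) → l = 1) →
      ∀ m ∈ MulAction.orbit T l, z • m ≠ m := by
    intro z hz m hm h
    rw [← hO] at hm
    exact hne1 v m hm (hz m fun y => by rw [← smul_apply, h])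
  constructor
  · have := not_inv P T hT hq hq2 x hx l (hfp x hf)
    push Not at this
    obtain ⟨m, hm, hxm⟩ := this
    have hm' : x • m ∈ supp P σ (σ x v) := (mem_supp_smul P σ x m v).2 (hO ▸ hm)
    obtain ⟨v', hv0', hvT', hvs'⟩ := exists_fixed P σ T hT (x • m) hm'
    refine ⟨![v, v'], fun i => by fin_cases i <;> assumption,
      linInd P σ hc _ (fun i => by fin_cases i <;> assumption) ?_⟩
    have hd : Disjoint (supp P σ v) (supp P σ v') := by
      rw [Set.disjoint_left]
      intro a ha ha'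
      apply hxm
      rw [← MulAction.orbit_eq_iff.2 (hvs ha), MulAction.orbit_eq_iff.2 (hvs' ha')]
      exact MulAction.mem_orbit_self _
    intro i j hij
    fin_cases i <;> fin_cases j <;> first | exact absurd rfl hij | exact hd | exact hd.symm
  · intro hst
    have hinj : ∀ (z : S) (u : V), u ≠ 0 → σ z u ≠ 0 := by
      intro z u hu h
      have := congrArg (σ z⁻¹) h
      rw [← Module.End.mul_apply, ← map_mul, inv_mul_cancel, map_one, map_zero] at this
      exact hu this
    have hdis : ∀ z : S, z ^ q = 1 →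
        (∀ l : P →* Kˣ, (∀ y : P, l (MulAut.conjNormal z⁻¹ y) = l y) → l = 1) →
        (∀ s ∈ T, σ s (σ z v) = σ z v) → Disjoint (supp P σ v) (supp P σ (σ z v)) := by
      intro z hz hzf hzT
      rw [Set.disjoint_left]
      intro a ha ha'
      -- the orbit lies in the support of `σ z v`, so it is stable under `z⁻¹`
      have hz' : ∀ m ∈ MulAction.orbit T l, z⁻¹ • m ∈ MulAction.orbit T l := by
        intro m hm
        rw [← MulAction.orbit_eq_iff.2 (hvs ha)] at hm
        obtain ⟨s, rfl⟩ := hm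
        have h2 := (mem_supp_smul P σ (s : S) a (σ z v)).2 ha'
        rw [hzT s s.2] at h2
        rw [← hO, ← mem_supp_smul P σ z, smul_inv_smul]
        exact h2
      refine not_inv P T hT hq hq2 z⁻¹ (by rw [inv_pow, hz, inv_one]) l ?_ hz'
      intro m hm h
      apply hfp z hzf m hm
      conv_lhs => rw [← h]
      rw [smul_inv_smul]
    have hT1 := hst v hvT
    have hT2 := hst _ hT1
    have e2 : σ x (σ x v) = σ (x * x) v := by rw [map_mul]; rfl
    have d1 := hdis x hx hf hT1
    have d2 := hdis (x * x) (by rw [← pow_two, ← pow_mul, mul_comm, pow_mul, hx, one_pow]) hf2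
      (e2 ▸ hT2)
    have d3 : Disjoint (supp P σ (σ x v)) (supp P σ (σ x (σ x v))) := by
      rw [Set.disjoint_left]
      intro a ha ha'
      rw [← smul_inv_smul x a, mem_supp_smul] at ha ha'
      exact Set.disjoint_left.1 d1 ha ha'
    rw [← e2] at d2
    refine ⟨![v, σ x v, σ x (σ x v)], fun i => by fin_cases i <;> assumption,
      linInd P σ hc _ (fun i => ?_) ?_⟩
    · fin_cases i
      · exact hv0
      · exact hinj _ _ hv0
      · exact hinj _ _ (hinj _ _ hv0)
    · intro i j hij
      fin_cases i <;> fin_cases j <;>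
        first | exact absurd rfl hij | exact d1 | exact d1.symm | exact d2 | exact d2.symm
              | exact d3 | exact d3.symm

end H38.Wt
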